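/-
Left-normed commutator values, with the convention `[a, b] = a b a⁻¹ b⁻¹`.
-/
import Mathlib

set_option autoImplicit false

namespace Cfsg.Agent.Lib.LCSVal

universe u v

section basic

variable {G : Type u} [Group G] {H : Type v} [Group H]

/-- The commutator `a b a⁻¹ b⁻¹`. -/
def cm (a b : G) : G := a * b * a⁻¹ * b⁻¹

theorem cm_def (a b : G) : cm a b = a * b * a⁻¹ * b⁻¹ := rfl

theorem map_cm (f : G →* H) (a b : G) : f (cm a b) = cm (f a) (f b) := by
  simp [cm, map_mul, map_inv]

theorem cm_eq_one_iff {a b : G} : cm a b = 1 ↔ a * b = b * a := by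
  simp only [cm]
  constructor
  · intro h
    have : a * b * a⁻¹ * b⁻¹ * (b * a) = b * a := by rw [h, one_mul]
    simpa [mul_assoc] using this
  · intro h
    rw [h]
    group

/-- `x` is a left-normed commutator with `k` brackets. -/
def IsVal : ℕ → G → Prop
  | 0, _ => True
  | k + 1, x => ∃ u b, IsVal k u ∧ x = cm u b

theorem isVal_zero (x : G) : IsVal 0 x := trivial

theorem isVal_succ {k : ℕ} {x : G} : IsVal (k + 1) x ↔ ∃ u b, IsVal k u ∧ x = cm u b := Iff.rfl

theorem IsVal.of_succ : ∀ {k : ℕ} {x : G}, IsVal (k + 1) x → IsVal k x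
  | 0, _, _ => trivial
  | k + 1, _, ⟨u, b, hu, hx⟩ => ⟨u, b, IsVal.of_succ hu, hx⟩

theorem IsVal.cm {k : ℕ} {x : G} (hx : IsVal k x) (b : G) : IsVal k (cm x b) :=
  IsVal.of_succ ⟨x, b, hx, rfl⟩

theorem IsVal.map (f : G →* H) : ∀ {k : ℕ} {x : G}, IsVal k x → IsVal k (f x)
  | 0, _, _ => trivial
  | k + 1, _, ⟨u, b, hu, hx⟩ => ⟨f u, f b, IsVal.map f hu, by rw [hx, map_cm]⟩

theorem IsVal.lift (f : G →* H) (hf : Function.Surjective f) :
    ∀ {k : ℕ} {y : H}, IsVal k y → ∃ x, IsVal k x ∧ f x = y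
  | 0, y, _ => by
    obtain ⟨x, hx⟩ := hf y
    exact ⟨x, trivial, hx⟩
  | k + 1, _, ⟨u, b, hu, hy⟩ => by
    obtain ⟨x, hx, hxu⟩ := IsVal.lift f hf hu
    obtain ⟨c, hc⟩ := hf b
    exact ⟨LCSVal.cm x c, ⟨x, c, hx, rfl⟩, by rw [map_cm, hxu, hc, hy]⟩

theorem IsVal.conj {k : ℕ} {x : G} (hx : IsVal k x) (g : G) : IsVal k (g * x * g⁻¹) := by
  have := hx.map (MulAut.conj g).toMonoidHom
  simpa using this

/-- Folds of lists. -/
theorem isVal_iff_list (k : ℕ) (x : G) :
    IsVal k x ↔ ∃ (a : G) (l : List G), l.length = k ∧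
      x = l.foldl (fun a b => a * b * a⁻¹ * b⁻¹) a := by
  induction k generalizing x with
  | zero =>
    refine ⟨fun _ => ⟨x, [], rfl, rfl⟩, fun _ => trivial⟩
  | succ k ih =>
    constructor
    · rintro ⟨u, b, hu, rfl⟩
      obtain ⟨a, l, hl, rfl⟩ := (ih u).mp hu
      refine ⟨a, l ++ [b], by simp [hl], ?_⟩
      rw [List.foldl_append]
      simp [LCSVal.cm]
    · rintro ⟨a, l, hl, rfl⟩
      rcases List.eq_nil_or_concat' l with h | ⟨l₀, b, rfl⟩
      · subst h
        simp at hl
      · simp only [List.length_append, List.length_singleton, Nat.add_right_cancel_iff] at hl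
        rw [List.foldl_append]
        simp only [List.foldl_cons, List.foldl_nil]
        exact ⟨_, b, (ih _).mpr ⟨a, l₀, hl, rfl⟩, rfl⟩

theorem exists_fin_iff (k : ℕ) (x : G) :
    (∃ f : Fin (k + 1) → G, x = ((List.ofFn f).tail).foldl (fun a b => a * b * a⁻¹ * b⁻¹) (f 0)) ↔
      IsVal k x := by
  rw [isVal_iff_list]
  constructor
  · rintro ⟨f, rfl⟩
    refine ⟨f 0, (List.ofFn f).tail, by simp, rfl⟩
  · rintro ⟨a, l, hl, rfl⟩
    subst hl
    refine ⟨Fin.cons a (fun i => l.get i), ?_⟩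
    simp [List.ofFn_succ]

/-- Values lie in the lower central series. -/
theorem IsVal.mem_lcs : ∀ {k : ℕ} {x : G}, IsVal k x → x ∈ (⊤ : Subgroup G).lowerCentralSeries k
  | 0, _, _ => Subgroup.mem_top _
  | k + 1, _, ⟨u, b, hu, hx⟩ => by
    rw [hx, Subgroup.lowerCentralSeries_succ]
    exact Subgroup.commutator_mem_commutator (IsVal.mem_lcs hu) (Subgroup.mem_top b)

/-- A normal subgroup containing all values contains the corresponding term of the lower central
series. -/
theorem lcs_le_of_forall : ∀ (k : ℕ) (L : Subgroup G) [L.Normal], (∀ x, IsVal k x → x ∈ L) →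
    (⊤ : Subgroup G).lowerCentralSeries k ≤ L
  | 0, L, _, h => by
    intro x _
    exact h x trivial
  | k + 1, L, hL, h => by
    set Z : Subgroup G := (Subgroup.center (G ⧸ L)).comap (QuotientGroup.mk' L) with hZ
    haveI hZn : Z.Normal := by
      rw [hZ]
      exact Subgroup.Normal.comap inferInstance _
    have hmem : ∀ x, x ∈ Z ↔ ∀ g : G, LCSVal.cm x g ∈ L := by
      intro x
      rw [hZ, Subgroup.mem_comap, Subgroup.mem_center_iff]
      constructor
      · intro hx g
        rw [← QuotientGroup.eq_one_iff, ← QuotientGroup.mk'_apply, map_cm, cm_eq_one_iff]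
        exact (hx _).symm
      · intro hx g
        obtain ⟨g, rfl⟩ := QuotientGroup.mk'_surjective L g
        have h1 := hx g
        rw [← QuotientGroup.eq_one_iff, ← QuotientGroup.mk'_apply, map_cm, cm_eq_one_iff] at h1
        exact h1.symm
    have hk : (⊤ : Subgroup G).lowerCentralSeries k ≤ Z := by
      apply lcs_le_of_forall k Z
      intro x hx
      rw [hmem]
      intro g
      exact h _ ⟨x, g, hx, rfl⟩
    rw [Subgroup.lowerCentralSeries_succ, Subgroup.commutator_le]
    intro a ha g _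
    exact (hmem a).mp (hk ha) g

end basic

end Cfsg.Agent.Lib.LCSVal
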