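/-
Coprime action of an element on a `q`-group and commutator words: non-vanishing of iterated
commutators, and elements of order `q` among the word values.
-/
import Cfsg.Agent.Lib.LCSVal.Basic

set_option autoImplicit false

namespace Cfsg.Agent.Lib.LCSVal

universe u

section act

variable {P : Type u} [Group P] {q : ℕ} (φ : P →* P)

/-- `u φ(u)⁻¹`. -/
def cf (u : P) : P := u * (φ u)⁻¹

theorem cf_one : cf φ 1 = 1 := by simp [cf]

variable {φ}

theorem iterate_of_cf_eq {u w : P} (hw : cf φ u = w) (hfix : φ w = w) (n : ℕ) :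
    φ^[n] u = (w⁻¹) ^ n * u := by
  have h1 : φ u = w⁻¹ * u := by
    rw [← hw, cf]
    group
  induction n with
  | zero => simp
  | succ n ih =>
    rw [Function.iterate_succ_apply', ih, map_mul, map_pow, map_inv, hfix, h1, pow_succ, mul_assoc]

/-- Non-vanishing: if `[u, φ] ≠ 1` then `[u, φ, φ] ≠ 1`. -/
theorem cf_cf_ne_one [Finite P] [hq : Fact q.Prime] (hP : IsPGroup q P) {n : ℕ}
    (hn : ∀ u, φ^[n] u = u) (hc : n.Coprime q) {u : P} (hu : cf φ u ≠ 1) :
    cf φ (cf φ u) ≠ 1 := by
  intro h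
  have hfix : φ (cf φ u) = cf φ u := by
    have : cf φ u * (φ (cf φ u))⁻¹ = 1 := h
    have h2 := mul_inv_eq_one.mp this
    exact h2.symm
  have h3 := iterate_of_cf_eq (u := u) (w := cf φ u) rfl hfix n
  rw [hn u] at h3
  have h4 : ((cf φ u)⁻¹) ^ n = 1 := by
    have : u * u⁻¹ = (cf φ u)⁻¹ ^ n * u * u⁻¹ := by rw [← h3]
    simpa using this.symm
  have h5 : (cf φ u) ^ n = 1 := by
    rw [inv_pow] at h4
    exact inv_eq_one.mp h4
  obtain ⟨m, hm⟩ := hP (cf φ u)
  have h6 : orderOf (cf φ u) ∣ n := orderOf_dvd_of_pow_eq_one h5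
  have h7 : orderOf (cf φ u) ∣ q ^ m := orderOf_dvd_of_pow_eq_one hm
  have h8 : orderOf (cf φ u) = 1 := Nat.Coprime.eq_one_of_dvd
    (Nat.Coprime.coprime_dvd_left h6 (hc.pow_right m)) h7
  exact hu (orderOf_eq_one_iff.mp h8)

theorem iterate_cf_ne_one [Finite P] [hq : Fact q.Prime] (hP : IsPGroup q P) {n : ℕ}
    (hn : ∀ u, φ^[n] u = u) (hc : n.Coprime q) {a : P} (ha : cf φ a ≠ 1) (j : ℕ) :
    cf φ ((cf φ)^[j] a) ≠ 1 := by
  induction j with
  | zero => simpa using ha
  | succ j ih =>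
    rw [Function.iterate_succ_apply']
    exact cf_cf_ne_one hP hn hc ih

theorem iterate_cf_ne_one' [Finite P] [hq : Fact q.Prime] (hP : IsPGroup q P) {n : ℕ}
    (hn : ∀ u, φ^[n] u = u) (hc : n.Coprime q) {a : P} (ha : cf φ a ≠ 1) (j : ℕ) :
    (cf φ)^[j] a ≠ 1 := by
  intro h
  have := iterate_cf_ne_one hP hn hc ha j
  rw [h, cf_one] at this
  exact this rfl

/-- An element of order `q` obtained from a nontrivial element of a `q`-group by taking a power. -/
theorem exists_pow_orderOf_eq [Finite P] [hq : Fact q.Prime] (hP : IsPGroup q P) {v : P}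
    (hv : v ≠ 1) : ∃ e : ℕ, orderOf (v ^ e) = q := by
  obtain ⟨m, hm⟩ := hP v
  have h1 : orderOf v ∣ q ^ m := orderOf_dvd_of_pow_eq_one hm
  obtain ⟨i, hi, hi2⟩ := (Nat.dvd_prime_pow hq.out).mp h1
  have hi0 : i ≠ 0 := by
    rintro rfl
    simp at hi2
    exact hv hi2
  obtain ⟨j, rfl⟩ := Nat.exists_eq_succ_of_ne_zero hi0
  refine ⟨q ^ j, ?_⟩
  have h2 : q ∣ orderOf v := by
    rw [hi2]
    exact dvd_pow_self q (Nat.succ_ne_zero j)
  have h3 : orderOf v / q = q ^ j := by
    rw [hi2, pow_succ]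
    exact Nat.mul_div_cancel _ hq.out.pos
  rw [← h3]
  exact orderOf_pow_orderOf_div (orderOf_pos_iff.mp (orderOf_pos v) |> fun _ => (orderOf_pos v).ne') h2

/-- Either all values lie in the centre, or one has central commutators. -/
theorem exists_noncentral_of_upper (S : Set P)
    (hS : ∀ x ∈ S, ∀ a : P, cm x a ∈ S) (n : ℕ) :
    ∀ x ∈ S, x ∈ Subgroup.upperCentralSeries P n → x ∉ Subgroup.center P →
      ∃ x' ∈ S, x' ∉ Subgroup.center P ∧ ∀ a : P, cm x' a ∈ Subgroup.center P := by
  induction n with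
  | zero =>
    intro x _ hx hc
    have : x = 1 := by simpa [Subgroup.upperCentralSeries_zero] using hx
    exact absurd (this ▸ Subgroup.one_mem _) hc
  | succ n ih =>
    intro x hxS hx hc
    by_cases hall : ∀ a : P, cm x a ∈ Subgroup.center P
    · exact ⟨x, hxS, hc, hall⟩
    · push Not at hall
      obtain ⟨a, ha⟩ := hall
      exact ih (cm x a) (hS x hxS a)
        (Subgroup.mem_upperCentralSeries_succ_iff.mp hx a) ha

theorem cm_pow_of_central {x a : P} (h : cm x a ∈ Subgroup.center P) (m : ℕ) :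
    cm x (a ^ m) = (cm x a) ^ m := by
  have hc : ∀ y : P, cm x a * y = y * cm x a := fun y =>
    ((Subgroup.mem_center_iff.mp h) y).symm
  induction m with
  | zero => simp [cm]
  | succ m ih =>
    have h1 : cm x (a ^ (m + 1)) = x * a ^ m * x⁻¹ * (cm x a) * a⁻¹ ^ m := by
      simp only [cm, pow_succ, mul_inv_rev, inv_pow]
      group
    rw [h1, pow_succ]
    have h2 : x * a ^ m * x⁻¹ * cm x a * a⁻¹ ^ m = cm x a * (x * a ^ m * x⁻¹ * a⁻¹ ^ m) := by
      rw [← hc (x * a ^ m * x⁻¹)]
      simp only [mul_assoc]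
    rw [h2]
    have h3 : cm x (a ^ m) = x * a ^ m * x⁻¹ * a⁻¹ ^ m := by
      simp [cm]
    rw [← h3, ih]
    exact (pow_succ' _ _).symm.trans (pow_succ _ _)

/-- The main lemma: among the word values there is an element of order `q`. -/
theorem exists_orderOf_eq_of_words [Finite P] [hq : Fact q.Prime] (hP : IsPGroup q P) {n : ℕ}
    (hn : ∀ u, φ^[n] u = u) (hc : n.Coprime q) (hne : ∃ a, φ a ≠ a) (k : ℕ) (S : Set P)
    (hbase : ∀ a, (cf φ)^[k] a ∈ S) (hclos : ∀ x ∈ S, ∀ a : P, cm x a ∈ S) :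
    ∃ x ∈ S, orderOf x = q := by
  haveI : Group.IsNilpotent P := hP.isNilpotent
  by_cases hcen : S ⊆ Subgroup.center P
  · -- all values are central
    obtain ⟨a, ha⟩ := hne
    have hca : cf φ a ≠ 1 := by
      intro h
      exact ha (mul_inv_eq_one.mp h).symm
    set v := (cf φ)^[k] a with hv
    have hvS : ∀ j, (cf φ)^[j] v ∈ Subgroup.center P := by
      intro j
      have : (cf φ)^[j] v = (cf φ)^[k] ((cf φ)^[j] a) := by
        rw [hv, ← Function.iterate_add_apply, ← Function.iterate_add_apply, add_comm]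
      rw [this]
      exact hcen (hbase _)
    have hw : (cf φ)^[k] v ≠ 1 := by
      rw [hv, ← Function.iterate_add_apply]
      exact iterate_cf_ne_one' hP hn hc hca _
    obtain ⟨e, he⟩ := exists_pow_orderOf_eq hP hw
    have hpow : ∀ j, (cf φ)^[j] (v ^ e) = ((cf φ)^[j] v) ^ e := by
      intro j
      induction j with
      | zero => simp
      | succ j ih =>
        rw [Function.iterate_succ_apply', Function.iterate_succ_apply', ih]
        set u := (cf φ)^[j] v with hu
        have huc : u ∈ Subgroup.center P := hvS j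
        have hcomm : Commute u (φ u)⁻¹ :=
          ((Subgroup.mem_center_iff.mp huc) _).symm
        simp only [cf, map_pow]
        rw [hcomm.mul_pow, inv_pow]
    refine ⟨(cf φ)^[k] v ^ e, ?_, he⟩
    rw [← hpow]
    exact hbase _
  · -- some value is not central
    rw [Set.not_subset] at hcen
    obtain ⟨x, hxS, hxc⟩ := hcen
    obtain ⟨m, hm⟩ := Group.IsNilpotent.nilpotent P
    obtain ⟨x', hx'S, hx'c, hx'⟩ := exists_noncentral_of_upper S hclos m x hxS (by rw [hm]; trivial) hxc
    have : ∃ a, cm x' a ≠ 1 := by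
      by_contra hall
      push Not at hall
      apply hx'c
      rw [Subgroup.mem_center_iff]
      intro g
      exact (cm_eq_one_iff.mp (hall g)).symm
    obtain ⟨a, ha⟩ := this
    obtain ⟨e, he⟩ := exists_pow_orderOf_eq hP ha
    refine ⟨cm x' (a ^ e), hclos _ hx'S _, ?_⟩
    rw [cm_pow_of_central (hx' a)]
    exact he

end act

end Cfsg.Agent.Lib.LCSVal
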